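import Mathlib
import Cfsg.Agent.Lib.Helper5.CS4.Defs

/-!
# S4146 (CS4), package [DICH]: an element of class size `n` acting coprimely on the abelian
normal subgroup `U` centralizes `U` or has only central fixed points in `U`.
-/

set_option autoImplicit false

namespace Cfsg.Agent.Lib.Helper20.CS4

open Cfsg.Agent.Lib.Helper5.CS4

universe u

theorem index_le_of_le_of_index_eq {G : Type u} [Group G] [Finite G] (H K : Subgroup G)
    (hHK : H ≤ K) (hidx : H.index = K.index) : K ≤ H := by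
  have h1 := Subgroup.relIndex_mul_index hHK
  have hK0 : K.index ≠ 0 := Subgroup.index_ne_zero_of_finite
  have h2 : H.relIndex K = 1 := by
    rw [hidx] at h1
    exact Nat.eq_of_mul_eq_mul_right (Nat.pos_of_ne_zero hK0) (by rw [h1, one_mul])
  exact Subgroup.relIndex_eq_one.mp h2

theorem mem_center_of_cidx_eq_one {G : Type u} [Group G] (x : G) (hx : cidx x = 1) :
    x ∈ Subgroup.center G := by
  have h1 : Subgroup.centralizer ({x} : Set G) = ⊤ := Subgroup.index_eq_one.mp hx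
  rw [Subgroup.mem_center_iff]
  intro g
  have hg : g ∈ Subgroup.centralizer ({x} : Set G) := by rw [h1]; exact Subgroup.mem_top g
  rw [Subgroup.mem_centralizer_iff] at hg
  exact (hg x rfl).symm

theorem cidx_eq_one_of_mem_center {G : Type u} [Group G] (x : G) (hx : x ∈ Subgroup.center G) :
    cidx x = 1 := by
  apply Subgroup.index_eq_one.mpr
  rw [eq_top_iff]
  intro g _
  rw [Subgroup.mem_centralizer_iff]
  intro h hh
  rw [Set.mem_singleton_iff] at hh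
  subst hh
  exact (Subgroup.mem_center_iff.mp hx g).symm

theorem pkgDich (hProd : PkgProd.{u}) : PkgDich.{u} := by
  intro G _ _ n m hctx U hUn hUc hUt a han hcop
  obtain ⟨hn1, hm1, hnm, hrange⟩ := hctx
  by_contra hcon
  rw [not_or] at hcon
  obtain ⟨h1, h2⟩ := hcon
  rw [not_forall] at h1
  obtain ⟨u1, h1⟩ := h1
  rw [Classical.not_imp] at h1
  obtain ⟨hu1, hu1a⟩ := h1
  rw [not_forall] at h2
  obtain ⟨w1, h2⟩ := h2
  rw [Classical.not_imp] at h2
  obtain ⟨hw1, h2⟩ := h2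
  rw [Classical.not_imp] at h2
  obtain ⟨hw1a, hw1c⟩ := h2
  have hconjU : ∀ u ∈ U, a * u * a⁻¹ ∈ U := fun u hu => hUn.conj_mem u hu a
  -- (i) the image of `φ` meets `C_U(a)` trivially
  have hi : ∀ u ∈ U, a * (u⁻¹ * (a * u * a⁻¹)) = (u⁻¹ * (a * u * a⁻¹)) * a →
      u⁻¹ * (a * u * a⁻¹) = 1 := by
    intro u hu hc
    obtain ⟨c, hcdef⟩ : ∃ c, c = u⁻¹ * (a * u * a⁻¹) := ⟨_, rfl⟩
    rw [← hcdef] at hc ⊢
    have hcU : c ∈ U := by rw [hcdef]; exact U.mul_mem (U.inv_mem hu) (hconjU u hu)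
    have hcc : Commute a c := hc
    have hpow : ∀ i : ℕ, a ^ i * u * (a ^ i)⁻¹ = u * c ^ i := by
      intro i
      induction i with
      | zero => simp
      | succ i ih =>
        have e1 : a ^ (i + 1) * u * (a ^ (i + 1))⁻¹ = a * (a ^ i * u * (a ^ i)⁻¹) * a⁻¹ := by
          rw [pow_succ']; group
        rw [e1, ih]
        have e2 : a * c ^ i = c ^ i * a := (hcc.pow_right i).eq
        have e3 : a * u * a⁻¹ = u * c := by rw [hcdef]; group
        calc a * (u * c ^ i) * a⁻¹ = (a * u * a⁻¹) * (a * c ^ i * a⁻¹) := by group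
          _ = (u * c) * (c ^ i) := by rw [e3, e2]; group
          _ = u * c ^ (i + 1) := by rw [pow_succ']; group
    have h4 := hpow (orderOf a)
    rw [pow_orderOf_eq_one, one_mul, inv_one, mul_one] at h4
    have h4' : c ^ orderOf a = 1 := by
      have : u * c ^ orderOf a = u * 1 := by rw [mul_one]; exact h4.symm
      exact mul_left_cancel this
    have h5 : orderOf c ∣ orderOf a := orderOf_dvd_of_pow_eq_one h4'
    have h6 : orderOf c ∣ Nat.card U := Subgroup.orderOf_dvd_natCard U hcU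
    have h7 : orderOf c = 1 := Nat.eq_one_of_dvd_coprimes hcop h5 h6
    exact orderOf_eq_one_iff.mp h7
  -- `φ(u) φ(v)⁻¹ = φ(u v⁻¹)`
  have hphi_div : ∀ u ∈ U, ∀ v ∈ U, (u⁻¹ * (a * u * a⁻¹)) * (v⁻¹ * (a * v * a⁻¹))⁻¹ =
      (u * v⁻¹)⁻¹ * (a * (u * v⁻¹) * a⁻¹) := by
    intro u hu v hv
    have hY : u⁻¹ * (a * u * a⁻¹) * (a * v * a⁻¹)⁻¹ ∈ U :=
      U.mul_mem (U.mul_mem (U.inv_mem hu) (hconjU u hu)) (U.inv_mem (hconjU v hv))
    calc (u⁻¹ * (a * u * a⁻¹)) * (v⁻¹ * (a * v * a⁻¹))⁻¹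
        = (u⁻¹ * (a * u * a⁻¹) * (a * v * a⁻¹)⁻¹) * v := by group
      _ = v * (u⁻¹ * (a * u * a⁻¹) * (a * v * a⁻¹)⁻¹) := (hUc v hv _ hY).symm
      _ = (u * v⁻¹)⁻¹ * (a * (u * v⁻¹) * a⁻¹) := by group
  obtain ⟨w2, hw2def⟩ : ∃ w2, w2 = u1⁻¹ * (a * u1 * a⁻¹) := ⟨_, rfl⟩
  have hw2U : w2 ∈ U := by rw [hw2def]; exact U.mul_mem (U.inv_mem hu1) (hconjU u1 hu1)
  have hw2ne : w2 ≠ 1 := by
    intro h
    apply hu1a
    rw [hw2def] at h
    have e : a * u1 * a⁻¹ = u1 := by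
      calc a * u1 * a⁻¹ = u1 * (u1⁻¹ * (a * u1 * a⁻¹)) := by group
        _ = u1 := by rw [h, mul_one]
    calc a * u1 = (a * u1 * a⁻¹) * a := by group
      _ = u1 * a := by rw [e]
  have hw2a : a * w2 ≠ w2 * a := by
    intro h
    apply hw2ne
    rw [hw2def] at h ⊢
    exact hi u1 hu1 h
  have hcent_comm : ∀ x : G, x ∈ Subgroup.center G → a * x = x * a :=
    fun x hx => Subgroup.mem_center_iff.mp hx a
  have hw1m : cidx w1 = m :=
    (hUt w1 hw1).resolve_left (fun h => hw1c (mem_center_of_cidx_eq_one w1 h))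
  have hw2m : cidx w2 = m :=
    (hUt w2 hw2U).resolve_left
      (fun h => hw2a (hcent_comm w2 (mem_center_of_cidx_eq_one w2 h)))
  have hw12U : w1 * w2 ∈ U := U.mul_mem hw1 hw2U
  have hw12m : cidx (w1 * w2) = m := by
    refine (hUt _ hw12U).resolve_left (fun h => hw2a ?_)
    have h3 := hcent_comm _ (mem_center_of_cidx_eq_one _ h)
    have e : a * w2 = w1⁻¹ * (a * (w1 * w2)) := by
      rw [← mul_assoc a w1 w2, hw1a]; group
    rw [e, h3]; group
  have hkey : ∀ g : G, g * (w1 * w2) = (w1 * w2) * g → g * w1 = w1 * g ∧ g * w2 = w2 * g := by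
    intro g hg
    obtain ⟨k, c, hka, hcw, hgk⟩ := (hProd n m hnm a w1 han hw1m).1 g
    obtain ⟨k', c', hka', hcw', hgk'⟩ := (hProd n m hnm a w2 han hw2m).1 g
    have hA1 : g * w1 * g⁻¹ = k * w1 * k⁻¹ := by
      rw [hgk]
      calc k * c * w1 * (k * c)⁻¹ = k * (c * w1 * c⁻¹) * k⁻¹ := by group
        _ = k * w1 * k⁻¹ := by rw [hcw]; group
    have hA2 : g * w2 * g⁻¹ = k' * w2 * k'⁻¹ := by
      rw [hgk']
      calc k' * c' * w2 * (k' * c')⁻¹ = k' * (c' * w2 * c'⁻¹) * k'⁻¹ := by group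
        _ = k' * w2 * k'⁻¹ := by rw [hcw']; group
    have hak : Commute a k := (show Commute k a from hka).symm
    have haw1 : Commute a w1 := hw1a
    have hA1a : Commute a (g * w1 * g⁻¹) := by
      rw [hA1]
      exact (hak.mul_right haw1).mul_right hak.inv_right
    have hA2phi : g * w2 * g⁻¹ = (k' * u1 * k'⁻¹)⁻¹ * (a * (k' * u1 * k'⁻¹) * a⁻¹) := by
      rw [hA2, hw2def]
      have e1 : a * k' = k' * a := hka'.symm
      have e2 : a⁻¹ * k'⁻¹ = k'⁻¹ * a⁻¹ := by rw [← mul_inv_rev, ← mul_inv_rev, hka']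
      calc k' * (u1⁻¹ * (a * u1 * a⁻¹)) * k'⁻¹
          = k' * u1⁻¹ * (k'⁻¹ * k') * a * u1 * (a⁻¹ * k'⁻¹) := by group
        _ = k' * u1⁻¹ * k'⁻¹ * (k' * a) * u1 * (k'⁻¹ * a⁻¹) := by rw [e2]; group
        _ = k' * u1⁻¹ * k'⁻¹ * (a * k') * u1 * (k'⁻¹ * a⁻¹) := by rw [← e1]
        _ = (k' * u1 * k'⁻¹)⁻¹ * (a * (k' * u1 * k'⁻¹) * a⁻¹) := by group
    have hprod : (g * w1 * g⁻¹) * (g * w2 * g⁻¹) = w1 * w2 := by
      calc (g * w1 * g⁻¹) * (g * w2 * g⁻¹) = g * (w1 * w2) * g⁻¹ := by group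
        _ = w1 * w2 := by rw [hg]; group
    have hA1U : g * w1 * g⁻¹ ∈ U := hUn.conj_mem w1 hw1 g
    have hA2U : g * w2 * g⁻¹ ∈ U := hUn.conj_mem w2 hw2U g
    have hyU : w2 * (g * w2 * g⁻¹)⁻¹ ∈ U := U.mul_mem hw2U (U.inv_mem hA2U)
    have hx : (g * w1 * g⁻¹) * w1⁻¹ = w2 * (g * w2 * g⁻¹)⁻¹ := by
      have e : g * w1 * g⁻¹ = w1 * w2 * (g * w2 * g⁻¹)⁻¹ := by rw [← hprod]; group
      rw [e]
      have e' := hUc w1 hw1 _ hyU
      calc w1 * w2 * (g * w2 * g⁻¹)⁻¹ * w1⁻¹ = (w1 * (w2 * (g * w2 * g⁻¹)⁻¹)) * w1⁻¹ := by group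
        _ = (w2 * (g * w2 * g⁻¹)⁻¹ * w1) * w1⁻¹ := by rw [e']
        _ = w2 * (g * w2 * g⁻¹)⁻¹ := by group
    have hu'U : k' * u1 * k'⁻¹ ∈ U := hUn.conj_mem u1 hu1 k'
    have hx2 : w2 * (g * w2 * g⁻¹)⁻¹ =
        (u1 * (k' * u1 * k'⁻¹)⁻¹)⁻¹ * (a * (u1 * (k' * u1 * k'⁻¹)⁻¹) * a⁻¹) := by
      rw [hA2phi, hw2def]
      exact hphi_div u1 hu1 _ hu'U
    have hxa : Commute a (w2 * (g * w2 * g⁻¹)⁻¹) := by
      rw [← hx]
      exact hA1a.mul_right haw1.inv_right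
    have hx1 : w2 * (g * w2 * g⁻¹)⁻¹ = 1 := by
      have h := hi (u1 * (k' * u1 * k'⁻¹)⁻¹) (U.mul_mem hu1 (U.inv_mem hu'U))
      rw [← hx2] at h
      exact h hxa.eq
    constructor
    · have e : g * w1 * g⁻¹ = w1 := by
        have : (g * w1 * g⁻¹) * w1⁻¹ = 1 := by rw [hx, hx1]
        exact mul_inv_eq_one.mp this
      calc g * w1 = (g * w1 * g⁻¹) * g := by group
        _ = w1 * g := by rw [e]
    · have e : g * w2 * g⁻¹ = w2 := (mul_inv_eq_one.mp hx1).symm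
      calc g * w2 = (g * w2 * g⁻¹) * g := by group
        _ = w2 * g := by rw [e]
  have hle1 : Subgroup.centralizer ({w1 * w2} : Set G) ≤ Subgroup.centralizer ({w1} : Set G) := by
    intro g hg
    rw [Subgroup.mem_centralizer_iff] at hg ⊢
    intro h hh
    rw [Set.mem_singleton_iff] at hh
    subst hh
    exact ((hkey g (hg _ rfl).symm).1).symm
  have hle2 : Subgroup.centralizer ({w1 * w2} : Set G) ≤ Subgroup.centralizer ({w2} : Set G) := by
    intro g hg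
    rw [Subgroup.mem_centralizer_iff] at hg ⊢
    intro h hh
    rw [Set.mem_singleton_iff] at hh
    subst hh
    exact ((hkey g (hg _ rfl).symm).2).symm
  have hge1 : Subgroup.centralizer ({w1} : Set G) ≤ Subgroup.centralizer ({w1 * w2} : Set G) :=
    index_le_of_le_of_index_eq _ _ hle1 (hw12m.trans hw1m.symm)
  have ha1 : a ∈ Subgroup.centralizer ({w1} : Set G) := by
    rw [Subgroup.mem_centralizer_iff]
    intro h hh
    rw [Set.mem_singleton_iff] at hh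
    subst hh
    exact hw1a.symm
  have ha2 := hle2 (hge1 ha1)
  rw [Subgroup.mem_centralizer_iff] at ha2
  exact hw2a (ha2 w2 rfl).symm

end Cfsg.Agent.Lib.Helper20.CS4
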