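import Mathlib
import Cfsg.Agent.Lib.Helper5.CS4.Defs
import Cfsg.Agent.Lib.Helper20.CS4.Dich

/-!
# S4146 (CS4), package [BETA]: without good elements, some prime-power element of class size `n`
commutes with a prime-power element of class size `m`.
-/

set_option autoImplicit false

namespace Cfsg.Agent.Lib.Helper20.CS4

open Cfsg.Agent.Lib.Helper5.CS4

universe u

theorem cidx_pow_dvd {G : Type u} [Group G] (x : G) (i : ℕ) : cidx (x ^ i) ∣ cidx x := by
  apply Subgroup.index_dvd_of_le
  intro g hg
  rw [Subgroup.mem_centralizer_iff] at hg ⊢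
  intro h hh
  rw [Set.mem_singleton_iff] at hh
  subst hh
  have h1 : Commute x g := hg x rfl
  exact (h1.pow_left i).eq

theorem pkgBeta (hE0 : PkgE0.{u}) (hProd : PkgProd.{u}) (hPP : PkgPP.{u})
    (hB4 : PkgSylCentral.{u}) : PkgBeta.{u} := by
  intro G _ _ n m hctx hGn hGm
  obtain ⟨hn1, hm1, hnm, hrange⟩ := id hctx
  by_contra hcon
  have hno : ∀ (a w : G) (r k s j : ℕ), r.Prime → orderOf a = r ^ k → cidx a = n → s.Prime →
      orderOf w = s ^ j → cidx w = m → a * w ≠ w * a := by
    intro a w r k s j hr hoa han hs how hwm hc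
    exact hcon ⟨a, w, r, k, s, j, hr, hoa, han, hs, how, hwm, hc⟩
  have htype : ∀ x : G, cidx x = 1 ∨ cidx x = n ∨ cidx x = m ∨ cidx x = n * m := by
    intro x
    have h : cidx x ∈ Set.range (fun x : G => cidx x) := ⟨x, rfl⟩
    rw [hrange] at h
    exact h
  have hmn : ¬ m ∣ n := by
    intro h
    have := Nat.Coprime.eq_one_of_dvd hnm.symm h
    omega
  have hnm' : ¬ n ∣ m := by
    intro h
    have := Nat.Coprime.eq_one_of_dvd hnm h
    omega
  -- prime-power elements of types `n` and `m`
  obtain ⟨x0, hx0⟩ : ∃ x : G, cidx x = n := by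
    have h : n ∈ Set.range (fun x : G => cidx x) := by rw [hrange]; simp
    exact h
  obtain ⟨y0, hy0⟩ : ∃ x : G, cidx x = m := by
    have h : m ∈ Set.range (fun x : G => cidx x) := by rw [hrange]; simp
    exact h
  obtain ⟨d0, hd0⟩ : ∃ x : G, cidx x = n * m := by
    have h : n * m ∈ Set.range (fun x : G => cidx x) := by rw [hrange]; simp
    exact h
  obtain ⟨a, r, k, hr, hoa, han⟩ : ∃ (a : G) (r k : ℕ), r.Prime ∧ orderOf a = r ^ k ∧ cidx a = n := by
    have hx0c : x0 ∉ Subgroup.center G := by
      intro h
      have := cidx_eq_one_of_mem_center x0 h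
      omega
    obtain ⟨i, p, l, hp, hot, htc⟩ := hPP x0 hx0c
    refine ⟨x0 ^ i, p, l, hp, hot, ?_⟩
    have hd := cidx_pow_dvd x0 i
    rw [hx0] at hd
    rcases htype (x0 ^ i) with h | h | h | h
    · exact absurd (mem_center_of_cidx_eq_one _ h) htc
    · exact h
    · rw [h] at hd; exact absurd hd hmn
    · rw [h] at hd; exact absurd (dvd_of_mul_left_dvd hd) hmn
  obtain ⟨b, s, j, hs, hob, hbm⟩ : ∃ (b : G) (s j : ℕ), s.Prime ∧ orderOf b = s ^ j ∧ cidx b = m := by
    have hy0c : y0 ∉ Subgroup.center G := by
      intro h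
      have := cidx_eq_one_of_mem_center y0 h
      omega
    obtain ⟨i, p, l, hp, hot, htc⟩ := hPP y0 hy0c
    refine ⟨y0 ^ i, p, l, hp, hot, ?_⟩
    have hd := cidx_pow_dvd y0 i
    rw [hy0] at hd
    rcases htype (y0 ^ i) with h | h | h | h
    · exact absurd (mem_center_of_cidx_eq_one _ h) htc
    · rw [h] at hd; exact absurd hd hnm'
    · exact h
    · rw [h] at hd; exact absurd (dvd_of_mul_right_dvd hd) hnm'
  have hrn : ¬ r ∣ n := fun h => hGn ⟨a, r, k, hr, hoa, han, h⟩
  have hsm : ¬ s ∣ m := fun h => hGm ⟨b, s, j, hs, hob, hbm, h⟩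
  have hrm : r ∣ m := by
    by_contra hrm
    have hcentral : a ∈ Subgroup.center G := by
      refine hB4 r hr (fun x => ?_) a k hoa
      rcases htype x with h | h | h | h <;> rw [h]
      · intro h'
        have := Nat.dvd_one.mp h'
        exact hr.one_lt.ne' this
      · exact hrn
      · exact hrm
      · intro h'
        rcases (Nat.Prime.dvd_mul hr).mp h' with h'' | h''
        · exact hrn h''
        · exact hrm h''
    have := cidx_eq_one_of_mem_center a hcentral
    omega
  have hrs : r ≠ s := by
    rintro rfl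
    exact hsm hrm
  -- `C(a) ∩ C(b)` is central
  have hD : ∀ x : G, x * a = a * x → x * b = b * x → x ∈ Subgroup.center G := by
    intro x hxa hxb
    by_contra hxc
    obtain ⟨i, p, l, hp, hot, htc⟩ := hPP x hxc
    have hta : x ^ i * a = a * x ^ i := ((show Commute x a from hxa).pow_left i).eq
    have htb : x ^ i * b = b * x ^ i := ((show Commute x b from hxb).pow_left i).eq
    rcases htype (x ^ i) with h | h | h | h
    · exact htc (mem_center_of_cidx_eq_one _ h)
    · exact hno (x ^ i) b p l s j hp hot h hs hob hbm htb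
    · exact hno a (x ^ i) r k p l hr hoa han hp hot h hta.symm
    · by_cases hpr : p = r
      · have hcop : (orderOf b).Coprime p := by
          rw [hob]
          apply Nat.Coprime.pow_left
          rw [Nat.coprime_primes hs hp]
          intro hsp
          exact hrs (hpr.symm.trans hsp.symm)
        have h3 := hE0 n m hctx (x ^ i) p l hp hot h b htb.symm hcop a hta.symm
        exact hno a b r k s j hr hoa han hs hob hbm h3
      · have hcop : (orderOf a).Coprime p := by
          rw [hoa]
          apply Nat.Coprime.pow_left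
          rw [Nat.coprime_primes hr hp]
          exact fun h' => hpr h'.symm
        have h3 := hE0 n m hctx (x ^ i) p l hp hot h a hta.symm hcop b htb.symm
        exact hno a b r k s j hr hoa han hs hob hbm h3.symm
  -- an element of type `n m` would be central
  have hidx := (hProd n m hnm a b han hbm).2
  have hle : Subgroup.centralizer ({a} : Set G) ⊓ Subgroup.centralizer ({b} : Set G) ≤
      Subgroup.centralizer ({d0} : Set G) := by
    intro x hx
    rw [Subgroup.mem_inf, Subgroup.mem_centralizer_iff, Subgroup.mem_centralizer_iff] at hx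
    have hxc := hD x (hx.1 a rfl).symm (hx.2 b rfl).symm
    rw [Subgroup.mem_centralizer_iff]
    intro h hh
    rw [Set.mem_singleton_iff] at hh
    subst hh
    exact (Subgroup.mem_center_iff.mp hxc h)
  have hge := index_le_of_le_of_index_eq _ _ hle (hidx.trans hd0.symm)
  have hd0mem : d0 ∈ Subgroup.centralizer ({d0} : Set G) := by
    rw [Subgroup.mem_centralizer_iff]
    intro h hh
    rw [Set.mem_singleton_iff] at hh
    subst hh
    rfl
  have hd0' := hge hd0mem
  rw [Subgroup.mem_inf, Subgroup.mem_centralizer_iff, Subgroup.mem_centralizer_iff] at hd0'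
  have hd0c := hD d0 (hd0'.1 a rfl).symm (hd0'.2 b rfl).symm
  have h1 := cidx_eq_one_of_mem_center d0 hd0c
  rw [hd0] at h1
  have : 1 < n * m := by nlinarith
  omega

end Cfsg.Agent.Lib.Helper20.CS4
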